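import Cfsg.Agent.Lib.KB.Real
import Cfsg.Agent.Lib.Inv.ZStarElt
import Cfsg.Agent.S4959
import Cfsg.Agent.S4965

/-!
The class number of a solvable group with trivial `p'`-core.
-/

set_option autoImplicit false
set_option linter.style.haveILetI false
set_option linter.unusedSectionVars false

namespace Cfsg.Lib.KB

open Subgroup MulAction Cfsg.Lib.SL Cfsg.Lib.KP Cfsg.Lib.DL9 Cfsg.Lib.KR

universe u

variable {p : ℕ} [hp : Fact p.Prime]

theorem km_mat {G F : Type*} [Group G] [Finite G] [Group.IsSolvable G] [Field F] [Finite F] {r : ℕ}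
    (ρ : G →* Matrix (Fin r) (Fin r) F) (h1 : Function.Injective ρ) (h2 : (Nat.card G : F) ≠ 0)
    (h3 : Nat.card G ∣ Nat.card F - 1) : KM (fittingSubgroup G) (3 ^ (r - 1)) := by
  letI : DistribMulAction (G × Fˣ) (Fin r → F) :=
    { smul := fun a v => (a.2 : F) • (ρ a.1).mulVec v
      one_smul := fun v => show ((1 : Fˣ) : F) • (ρ 1).mulVec v = v by simp
      mul_smul := fun a b v => show ((a.2 * b.2 : Fˣ) : F) • (ρ (a.1 * b.1)).mulVec v =
        (a.2 : F) • (ρ a.1).mulVec ((b.2 : F) • (ρ b.1).mulVec v) by simp [Matrix.mulVec_smul, mul_smul]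
      smul_zero := fun a => show (a.2 : F) • (ρ a.1).mulVec 0 = 0 by simp
      smul_add := fun a v w => show (a.2 : F) • (ρ a.1).mulVec (v + w) =
        (a.2 : F) • (ρ a.1).mulVec v + (a.2 : F) • (ρ a.1).mulVec w by rw [Matrix.mulVec_add, smul_add] }
  have sm : ∀ (a : G × Fˣ) (v : Fin r → F), a • v = (a.2 : F) • (ρ a.1).mulVec v := fun _ _ => rfl
  obtain ⟨γ, hγ⟩ := IsCyclic.exists_monoid_generator (α := Fˣ)
  have q1 := Finite.one_lt_card (α := F)
  have o : orderOf γ = Nat.card F - 1 :=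
    (orderOf_eq_card_of_forall_mem_powers hγ).trans (Nat.card_units F)
  obtain ⟨L, nL, k1, Y, _, _, ψ, k2⟩ := km_top (A := G × Fˣ) (V := Fin r → F) (θ := (1, γ)) (N := Nat.card F - 1)
    (fun M hM => by
      obtain ⟨W, w1, w2, w3⟩ := maschke (Matrix.toLinAlgEquiv'.toMonoidHom.comp ρ) h2
        ⟨M.toAddSubmonoid, fun c v hv => by
          by_cases c0 : c = 0
          · rw [c0, zero_smul]; exact M.zero_mem
          · simpa [sm] using hM (1, Units.mk0 c c0) v hv⟩ fun g v hv => by simpa [sm] using hM (g, 1) v hv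
      exact ⟨W.toAddSubgroup, fun a v hv => W.smul_mem _ (w1 _ _ hv), eq_bot_iff.2 fun v hv => w2.le hv,
        eq_top_iff.2 fun v _ => AddSubgroup.mem_sup.2 (Submodule.mem_sup.1 (w3.ge trivial))⟩) (by omega)
    ⟨fun a v => by simp [sm, Matrix.mulVec_smul, smul_comm (γ : F)], fun a v => by
      rw [show a ^ (Nat.card F - 1) = 1 from Prod.ext (orderOf_dvd_iff_pow_eq_one.1
        ((_root_.orderOf_dvd_natCard _).trans h3)) (Nat.card_units F ▸ pow_card_eq_one'), one_smul],
      fun i v hv e => o ▸ orderOf_dvd_of_pow_eq_one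
      (Units.ext (smul_left_injective F hv (by simpa [sm] using e))), by
      by_cases e : 1 + (γ : F) = 0
      · exact Or.inr fun v => by simpa [sm, add_smul] using congrArg (· • v) e
      · obtain ⟨k, hk⟩ := hγ (Units.mk0 _ e)
        exact Or.inl ⟨k, fun v => by simpa [sm, add_smul] using congrArg (fun c : Fˣ => (c : F) • v) hk.symm⟩⟩
  rw [Nat.sub_add_cancel q1.le, Nat.card_fun, Nat.card_eq_fintype_card (α := Fin r), Fintype.card_fin,
    Nat.log_pow q1] at k1
  refine (k1.comap (MonoidHom.inl G Fˣ)).mono (Core.le_fittingSubgroup (nL.comap _)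
    (Core.isNilpotent_of_injective (ψ.comp (MonoidHom.subgroupComap _ _)) ((injective_iff_map_eq_one _).2
      fun a e => Subtype.ext (h1 (Matrix.ext_of_mulVec_single fun i => ?_))))) le_rfl
  have : ((1 : Fˣ) : F) • (ρ a).mulVec (Pi.single i 1) = _ := k2 _ e (Pi.single i 1)
  rwa [OneMemClass.coe_one, map_one, Matrix.one_mulVec, ← one_smul F ((ρ a).mulVec _)]

section

variable {A V : Type*} [Group A] [Finite A] [AddCommGroup V] [DistribMulAction A V] [Module (ZMod p) V]

theorem cr_cop (h : ¬ p ∣ Nat.card A) : CR A V := fun M hM => by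
  haveI : SMulCommClass A (ZMod p) V := ⟨fun a c v => ZMod.map_smul (DistribSMul.toAddMonoidHom V a) c v⟩
  obtain ⟨W, w1, w2, w3⟩ := maschke (DistribMulAction.toModuleEnd (ZMod p) V : A →* _)
    (mt (ZMod.natCast_eq_zero_iff _ _).1 h) (M.toZModSubmodule p) hM
  exact ⟨W.toAddSubgroup, w1, eq_bot_iff.2 fun v hv => w2.le hv,
    eq_top_iff.2 fun v _ => AddSubgroup.mem_sup.2 (Submodule.mem_sup.1 (w3.ge trivial))⟩

theorem km_lin [Group.IsSolvable A] [Finite V] [FaithfulSMul A V] (h : ¬ p ∣ Nat.card A) {a : ℕ}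
    (hV : Nat.card V = p ^ a) : KM (fittingSubgroup A) (3 ^ (a - 1)) := by
  haveI : SMulCommClass A (ZMod p) V := ⟨fun a c v => ZMod.map_smul (DistribSMul.toAddMonoidHom V a) c v⟩
  haveI := Module.Finite.of_finite (R := ZMod p) (M := V)
  have hd : Module.finrank (ZMod p) V = a := Nat.pow_right_injective hp.out.two_le (by
    change p ^ _ = p ^ a
    rw [← hV, Module.natCard_eq_pow_finrank (K := ZMod p), Nat.card_zmod])
  let F := GaloisField p (Nat.card A).totient
  refine km_mat (F := F) ((algebraMap (ZMod p) F).mapMatrix.toMonoidHom.comp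
    ((LinearMap.toMatrixAlgEquiv (Module.finBasisOfFinrankEq _ _ hd)).toMonoidHom.comp
      (DistribMulAction.toModuleEnd (ZMod p) V))) ((Matrix.map_injective (algebraMap (ZMod p) F).injective).comp
    ((LinearMap.toMatrixAlgEquiv _).injective.comp fun a b e => eq_of_smul_eq_smul fun v : V =>
      DFunLike.congr_fun e v)) (mt (CharP.cast_eq_zero_iff F p _).1 h) ?_
  rw [GaloisField.card p _ (Nat.totient_pos.2 Nat.card_pos).ne']
  exact (Nat.modEq_iff_dvd' (Nat.pow_pos hp.out.pos)).1 (Nat.ModEq.pow_totient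
    (hp.out.coprime_iff_not_dvd.2 h)).symm

end

/-- the additive action attached to a homomorphism to the automorphism group -/
@[reducible] def actOf {Y V : Type*} [Group Y] [CommGroup V] (φ : Y →* MulAut V) :
    DistribMulAction Y (Additive V) where
  smul g u := Additive.ofMul (φ g u.toMul)
  one_smul u := by change Additive.ofMul (φ 1 u.toMul) = _; simp
  mul_smul g g' u := by change Additive.ofMul (φ (g * g') u.toMul) = _; rw [map_mul]; rfl
  smul_zero g := congrArg Additive.ofMul (map_one _)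
  smul_add g u u' := congrArg Additive.ofMul (map_mul _ _ _)

theorem classes_le_ker {X Y : Type*} [Group X] [Finite X] [Group Y] (π : X →* Y) (hπ : Function.Surjective π) :
    Nat.card (ConjClasses X) ≤ Nat.card (ConjClasses π.ker) * Nat.card (ConjClasses Y) :=
  haveI := Finite.of_surjective π hπ
  (Cfsg.Agent.S4201.result π.ker).trans (Nat.mul_le_mul_left _
    (classes_le_of_surj (QuotientGroup.quotientKerEquivOfSurjective π hπ).symm.toMonoidHom
      (QuotientGroup.quotientKerEquivOfSurjective π hπ).symm.surjective))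

theorem nil_case {Z Y : Type*} [Group Z] [Finite Z] [Group Y] [Group.IsNilpotent Y] (π : Z →* Y)
    (h1 : ∀ v ∈ π.ker, v ^ p = 1) (h2 : ¬ p ∣ π.ker.index) (h3 : centralizer (π.ker : Set Z) = π.ker) :
    Nat.card (ConjClasses Z) ≤ Nat.card π.ker := by
  classical
  obtain ⟨G, hG⟩ := exists_right_complement'_of_coprime (N := π.ker) (Core.coprime_card_of_isPGroup
    (fun v => ⟨1, Subtype.ext (by simpa using h1 v v.2)⟩) (hp.out.coprime_iff_not_dvd.2 h2).symm)
  haveI := Core.isNilpotent_of_injective (π.comp G.subtype) ((injective_iff_map_eq_one _).2 fun a e =>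
    Subtype.ext (hG.disjoint.le_bot ⟨e, a.2⟩))
  letI : CommGroup π.ker :=
    { (inferInstance : Group π.ker) with mul_comm := fun a b => Subtype.ext (h3.ge b.2 a a.2) }
  letI := actOf ((MulAut.conjNormal : Z →* MulAut π.ker).comp G.subtype)
  haveI : Module (ZMod p) (Additive π.ker) := AddCommGroup.zmodModule fun v => Subtype.ext (h1 _ v.toMul.2)
  obtain ⟨v, U, β, h⟩ := rv_cr (p := p) (cr_cop (A := G) (V := Additive π.ker) (hG.symm.index_eq_card ▸ h2))
  let r : Z → Additive π.ker := fun x => if h : x ∈ π.ker then Additive.ofMul ⟨x, h⟩ else 0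
  have hr : ∀ u : π.ker, r u = Additive.ofMul u := fun u => dif_pos u.2
  refine Cfsg.Agent.S4959.result p _ h1 h2 h3 G hG _ v.toMul.2 (U.toSubgroup'.map π.ker.subtype) (map_subtype_le _)
    ?_ (fun a ha e h4 => hG.disjoint.le_bot ⟨h3.le fun w hw => ?_, ha⟩) (fun x y => β (r x) (r y)) ?_ ?_ ?_ ?_
  · rintro a ha e _ ⟨u, hu, rfl⟩
    exact ⟨_, h.inv ⟨a, ha⟩ (Subtype.ext e) u hu, rfl⟩
  · exact (mul_inv_eq_iff_eq_mul.1 (congrArg Subtype.val (h.fa ⟨a, ha⟩ (Subtype.ext e)
      (fun u hu => Subtype.ext (h4 _ ⟨u, hu, rfl⟩)) (Additive.ofMul ⟨w, hw⟩) trivial))).symm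
  · rintro _ ⟨u, -, rfl⟩ _ ⟨u', -, rfl⟩ _ ⟨w, -, rfl⟩
    change β (r (u * u' : π.ker)) _ = β (r u) _ + β (r u') _
    rw [hr, hr u, hr u', ofMul_mul, map_add, AddMonoidHom.add_apply]
  · rintro _ ⟨u, -, rfl⟩ _ ⟨w, -, rfl⟩ _ ⟨w', -, rfl⟩
    change β _ (r (w * w' : π.ker)) = β _ (r w) + β _ (r w')
    rw [hr, hr w, hr w', ofMul_mul, map_add]
  · rintro a ha e _ ⟨u, hu, rfl⟩ _ ⟨w, hw, rfl⟩
    change β (r (MulAut.conjNormal a u : π.ker)) (r (MulAut.conjNormal a w : π.ker)) = β (r u) (r w)
    rw [hr, hr, hr, hr]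
    exact h.bi ⟨a, ha⟩ (Subtype.ext e) u hu w hw
  · rintro _ ⟨u, hu, rfl⟩ h4
    refine congrArg Subtype.val (h.nd u hu fun w hw => ?_)
    have : β (r u) (r w.toMul) = 0 := h4 _ ⟨w, hw, rfl⟩
    rwa [hr, hr] at this

theorem core {Z Y : Type*} [Group Z] [Finite Z] [Group Y] [Group.IsSolvable Y] (π : Z →* Y)
    (hπ : Function.Surjective π) (h1 : ∀ v ∈ π.ker, v ^ p = 1) (h2 : ¬ p ∣ Nat.card Y)
    (h3 : centralizer (π.ker : Set Z) = π.ker) {a : ℕ} (h4 : Nat.card π.ker = p ^ a) :
    Nat.card (ConjClasses Z) ≤ 3 ^ (a - 1) * p ^ a := by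
  haveI := Finite.of_surjective π hπ
  letI : CommGroup π.ker :=
    { (inferInstance : Group π.ker) with mul_comm := fun a b => Subtype.ext (h3.ge b.2 a a.2) }
  let φ : Y →* MulAut π.ker := π.liftOfSurjective hπ ⟨MulAut.conjNormal, fun x hx => mem_ker_conj.2 (h3.ge hx)⟩
  have k : ∀ z, φ (π z) = MulAut.conjNormal z := fun c => MonoidHom.liftOfRightInverse_comp_apply _ _ _ _ _
  letI := actOf φ
  haveI : FaithfulSMul Y (Additive π.ker) := ⟨fun {a b} e => (injective_iff_map_eq_one φ).2 (fun y e => by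
    obtain ⟨z, rfl⟩ := hπ y
    exact h3.le (mem_ker_conj.1 ((k z).symm.trans e))) (MulEquiv.ext fun v => e (Additive.ofMul v))⟩
  haveI : Module (ZMod p) (Additive π.ker) := AddCommGroup.zmodModule fun v => Subtype.ext (h1 _ v.toMul.2)
  let N := (fittingSubgroup Y).comap π
  have e : (π.subgroupComap (fittingSubgroup Y)).ker = π.ker.subgroupOf N :=
    Subgroup.ext fun x => Subtype.ext_iff
  have le : π.ker ≤ N := ker_le_comap _ _
  have h5 := nil_case (p := p) (π.subgroupComap (fittingSubgroup Y)) (fun v hv => Subtype.ext (h1 _ (e.le hv)))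
    (fun h => h2 (by
      rw [e] at h
      rw [← card_top, ← MonoidHom.range_eq_top.2 hπ, ← index_ker]
      exact h.trans (relIndex_dvd_index_of_le le)))
    (e ▸ le_antisymm (fun x hx => h3.le fun y hy => congrArg Subtype.val (hx ⟨y, le hy⟩ hy))
      fun x hx y hy => Subtype.ext (h3.ge hx y hy))
  rw [e, Nat.card_congr (subgroupOfEquivOfLe le).toEquiv, h4] at h5
  rw [mul_comm]
  exact (Cfsg.Agent.S4201.result N).trans (Nat.mul_le_mul h5 (((km_lin (V := Additive π.ker) h2 h4).comap π).le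
    (MonoidHom.id Z) _ (QuotientGroup.mk'_surjective N) fun c hc => (QuotientGroup.eq_one_iff c).2 hc))

theorem bnd_mul (p a b : ℕ) : 3 ^ (a - 1) * p ^ a * (3 ^ (b - 1) * p ^ b) ≤ 3 ^ (a + b - 1) * p ^ (a + b) := by
  rw [mul_mul_mul_comm, ← pow_add, ← pow_add]
  exact Nat.mul_le_mul_right _ (Nat.pow_le_pow_right (by norm_num) (by omega))

theorem grp (X : Type u) [Group X] [Finite X] [Group.IsSolvable X] (hO : pPrimeCore p X = ⊥) :
    Nat.card (ConjClasses X) ≤ 3 ^ ((Nat.card X).factorization p - 1) * p ^ (Nat.card X).factorization p := by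
  induction hn : Nat.card X using Nat.strong_induction_on generalizing X with
  | _ n ih =>
  subst hn
  rcases subsingleton_or_nontrivial X with hs | hs
  · refine (Nat.card_le_card_of_surjective _ ConjClasses.mk_surjective).trans ?_
    simp
  have hP : pCore p X ≠ ⊥ := fun e => by
    have := Core.centralizer_pCore_le_of_isSolvable hO
    rw [e, coe_bot, centralizer_eq_top_iff_subset.2 (by simp)] at this
    exact not_le_of_gt bot_lt_top this
  have fac : ∀ {a b : ℕ}, 0 < a * b → (a * b).factorization p = a.factorization p + b.factorization p :=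
    fun h => by rw [Nat.factorization_mul (Nat.pos_of_mul_pos_right h).ne' (Nat.pos_of_mul_pos_left h).ne']; rfl
  by_cases h1 : p ∣ (pCore p X).index
  · let π := (QuotientGroup.mk' (pPrimeCore p (X ⧸ pCore p X))).comp (QuotientGroup.mk' (pCore p X))
    have hπ : Function.Surjective π := (QuotientGroup.mk'_surjective _).comp (QuotientGroup.mk'_surjective _)
    have e := π.ker.card_mul_index
    rw [index_ker, MonoidHom.range_eq_top.2 hπ, card_top] at e
    have k1 : 1 < Nat.card π.ker := (one_lt_card_iff_ne_bot _).2 fun e => hP (eq_bot_iff.2 fun x hx => e.le (by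
      rw [MonoidHom.mem_ker, MonoidHom.comp_apply, QuotientGroup.mk'_apply (pCore p X),
        (QuotientGroup.eq_one_iff x).2 hx, map_one]))
    have k2 : 1 < (pPrimeCore p (X ⧸ pCore p X)).index := one_lt_index_of_ne_top fun e =>
      Core.coprime_iff_not_dvd.1 (Core.pPrimeCore_eq_top_iff.1 e) h1
    rw [index_eq_card] at k2
    refine (classes_le_ker π hπ).trans ((Nat.mul_le_mul (ih _ (by nlinarith) _ (by
      rw [Core.pPrimeCore_eq_subgroupOf_of_normal, hO, bot_subgroupOf]) rfl) (ih _ (by nlinarith) _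
      (Core.pPrimeCore_quotient_pPrimeCore p _) rfl)).trans ?_)
    rw [← e, fac (e ▸ Nat.card_pos)]
    exact bnd_mul _ _ _
  let V : Subgroup X :=
    { carrier := {z | z ∈ pCore p X ⊓ centralizer (pCore p X : Set X) ∧ z ^ p = 1}
      one_mem' := ⟨one_mem _, one_pow p⟩
      mul_mem' := fun {a b} ha hb => ⟨mul_mem ha.1 hb.1, by
        rw [Commute.mul_pow (hb.1.2 a ha.1.1), ha.2, hb.2, one_mul]⟩
      inv_mem' := fun {a} ha => ⟨inv_mem ha.1, by rw [inv_pow, ha.2, inv_one]⟩ }
  haveI : V.Normal := ⟨fun a ha g => ⟨Normal.conj_mem inferInstance a ha.1 g, by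
    rw [conj_pow, ha.2, mul_one, mul_inv_cancel]⟩⟩
  have hab : ∀ a ∈ V, ∀ b ∈ V, a * b = b * a := fun a ha b hb => hb.1.2 a ha.1.1
  have V1 : 1 < Nat.card V := by
    haveI := (nontrivial_iff_ne_bot _).2 hP
    haveI := (Core.pCore_isPGroup p X).center_nontrivial
    obtain ⟨k, k0, hk⟩ := ((Core.pCore_isPGroup p X).to_subgroup (center _)).nontrivial_iff_card.1 inferInstance
    obtain ⟨z, hz⟩ := exists_prime_orderOf_dvd_card' (G := center (pCore p X)) p (hk ▸ dvd_pow_self p k0.ne')
    refine (one_lt_card_iff_ne_bot V).2 fun e => hp.out.ne_one (hz.symm.trans (orderOf_eq_one_iff.2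
      (Subtype.ext (Subtype.ext (e.le ⟨⟨z.1.2, fun y hy => congrArg Subtype.val
        (mem_center_iff.1 z.2 ⟨y, hy⟩)⟩, ?_⟩)))))
    exact congrArg (fun x : center (pCore p X) => (x.1 : X)) (hz ▸ pow_orderOf_eq_one z)
  let φ : X ⧸ V →* MulAut V := QuotientGroup.lift V MulAut.conjNormal fun v hv => mem_ker_conj.2 fun w hw =>
    hab w hw v hv
  let π : V ⋊[φ] (X ⧸ V) →* V ⋊[φ.range.subtype] φ.range :=
    SemidirectProduct.map (MonoidHom.id V) φ.rangeRestrict fun _ => rfl
  haveI := Finite.of_equiv _ (SemidirectProduct.equivProd (φ := φ)).symm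
  haveI := Finite.of_equiv _ (SemidirectProduct.equivProd (φ := φ.range.subtype)).symm
  haveI := Group.isSolvable_of_surjective φ.rangeRestrict_surjective
  obtain ⟨a, ha⟩ := (IsPGroup.iff_card (p := p) (G := V)).1 fun v => ⟨1, Subtype.ext (by simpa using v.2.2)⟩
  have h2 : ¬ p ∣ Nat.card φ.range := fun e => h1 (e.trans (by
    rw [← index_ker, ← index_comap_of_surjective _ (QuotientGroup.mk'_surjective V)]
    exact index_dvd_of_le fun x hx => mem_ker_conj.2 fun v hv => (hv.1.2 x hx).symm))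
  have h3 := core (p := p) (SemidirectProduct.rightHom (φ := φ.range.subtype))
    SemidirectProduct.rightHom_surjective (by
      rw [← SemidirectProduct.range_inl_eq_ker_rightHom]
      rintro _ ⟨v, rfl⟩
      rw [← map_pow, show v ^ p = 1 from Subtype.ext v.2.2, map_one]) h2 (by
      refine le_antisymm (fun x hx => Subtype.ext (MulEquiv.ext fun v => ?_)) fun x hx y hy => ?_
      · have := congrArg SemidirectProduct.left (hx (SemidirectProduct.inl v) (SemidirectProduct.rightHom_inl v))
        simp only [SemidirectProduct.mul_left, SemidirectProduct.left_inl, SemidirectProduct.right_inl, map_one,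
          MulAut.one_apply] at this
        exact mul_left_cancel (this.symm.trans (Subtype.ext (hab _ v.2 _ x.left.2)))
      · rw [← SemidirectProduct.range_inl_eq_ker_rightHom] at hx hy
        obtain ⟨x, rfl⟩ := hx
        obtain ⟨y, rfl⟩ := hy
        rw [← map_mul, ← map_mul, show y * x = x * y from Subtype.ext (hab _ y.2 _ x.2)]) (a := a) (by
      rw [← SemidirectProduct.range_inl_eq_ker_rightHom, ← ha]
      exact (Nat.card_congr (MonoidHom.ofInjective SemidirectProduct.inl_injective).toEquiv).symm)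
  have h4 : Nat.card (ConjClasses π.ker) ≤ Nat.card (ConjClasses φ.ker) := classes_le_of_surj
    ((SemidirectProduct.inr.comp φ.ker.subtype).codRestrict π.ker fun x =>
      SemidirectProduct.ext rfl (Subtype.ext x.2)) fun x =>
    ⟨⟨x.1.right, congrArg (fun y : V ⋊[φ.range.subtype] φ.range => (y.right : MulAut V)) x.2⟩,
      Subtype.ext (SemidirectProduct.ext (congrArg SemidirectProduct.left x.2).symm rfl)⟩
  have e1 := V.card_mul_index
  have e2 := φ.ker.card_mul_index
  rw [index_ker] at e2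
  rw [index_eq_card, ← e2] at e1
  have p1 := Nat.card_pos (α := φ.range)
  have p2 := Nat.card_pos (α := φ.ker)
  let ψ := (QuotientGroup.mk' V).subgroupComap φ.ker
  have h5 := ih _ (by nlinarith) φ.ker ((Core.pPrimeCore_eq_bot_congr (QuotientGroup.quotientKerEquivOfSurjective ψ
    (MonoidHom.subgroupComap_surjective_of_surjective _ _ (QuotientGroup.mk'_surjective V)))).1
    (Inv.pPrimeCore_quotient_central_eq_bot _ (fun x => ⟨1, Subtype.ext (Subtype.ext (by
      simpa using ((QuotientGroup.eq_one_iff _).1 (congrArg Subtype.val x.2)).2))⟩) (fun x hx => mem_center_iff.2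
        fun y => Subtype.ext (mem_ker_conj.1 y.2 _ ((QuotientGroup.eq_one_iff _).1 (congrArg Subtype.val hx))).symm)
      (by rw [Core.pPrimeCore_eq_subgroupOf_of_normal, hO, bot_subgroupOf]))) rfl
  refine (Cfsg.Agent.S4965.result V hab φ fun _ _ => rfl).trans ((classes_le_ker π fun y => ?_).trans
    ((Nat.mul_le_mul (h4.trans h5) h3).trans ?_))
  · obtain ⟨x, hx⟩ := φ.rangeRestrict_surjective y.right
    exact ⟨⟨y.left, x⟩, SemidirectProduct.ext rfl hx⟩
  · rw [← e1, fac (e1 ▸ Nat.card_pos), fac (Nat.mul_pos p2 p1), Nat.factorization_eq_zero_of_not_dvd h2, ha,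
      Nat.factorization_pow_self hp.out, add_zero, add_comm]
    exact bnd_mul _ _ _

end Cfsg.Lib.KB
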