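import Cfsg.Agent.Lib.KB.Grp
import Cfsg.Agent.Lib.Block.Solv

/-!
Gallagher's bound for the characters over an invariant character, and the size of blocks of solvable groups.
-/

set_option autoImplicit false
set_option linter.style.haveILetI false
set_option linter.unusedSectionVars false

namespace Cfsg.Lib.KB

open Subgroup Cfsg.Lib.Char Cfsg.Lib.Clifford Cfsg.Lib.Induce Cfsg.Lib.Block

universe u

theorem coset_mul {T : Type*} [Group T] [Finite T] (N : Subgroup T) [N.Normal] {η ψ : T → ℂ}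
    (hη : IsCharacter T η) (h1 : IsIrrCharacter N fun n : N => η n) (hψ : IsCharacter T ψ) {e : ℂ}
    (h2 : ∀ n : N, ψ n = e * η n) (t : T) : ∃ c, ∀ n ∈ N, ψ (n * t) = c * η (n * t) := by
  haveI := Fintype.ofFinite T
  haveI := Fintype.ofFinite N
  have : ∀ ξ : IrrCharacter T, ∃ c, ∀ n ∈ N, classInner ψ ξ * (ξ : T → ℂ) (n * t) = c * η (n * t) := fun ξ => by
    by_cases h : classInner ψ ξ = 0
    · exact ⟨0, fun n _ => by rw [h, zero_mul, zero_mul]⟩
    obtain ⟨φ, h3, h4⟩ := (ξ.2.isClassFunction.restrict N).exists_irr_inner_ne_zero fun e =>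
      ξ.2.apply_one_ne_zero (congrFun e 1)
    have h5 := inner_comp_ne_zero_of_constituent N.subtype hψ ξ.2 h h3.isCharacter h4
    rw [show (fun n => ψ (N.subtype n)) = e • fun n : N => η n from funext h2, classInner_smul_left] at h5
    obtain ⟨β, -, hβ⟩ := exists_inflate_mul_eq_of_over N hη h1 ξ.2
      (h1.eq_of_inner_ne_zero h3 (right_ne_zero_of_mul h5) ▸ h4)
    refine ⟨classInner ψ ξ * β t, fun n hn => ?_⟩
    rw [congrFun hβ, Pi.mul_apply, QuotientGroup.mk_mul, (QuotientGroup.eq_one_iff n).2 hn, one_mul, mul_assoc]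
  choose c hc using this
  exact ⟨∑ ξ, c ξ, fun n hn => by
    rw [hψ.isClassFunction.apply_eq_sum_irr, Finset.sum_mul]
    exact Finset.sum_congr rfl fun ξ _ => hc ξ n hn⟩

theorem card_over_le {G : Type*} [Group G] [Finite G] (N : Subgroup G) [hN : N.Normal] [Fintype N] {θ : N → ℂ}
    (hθ : IsIrrCharacter N θ) (hinv : inertia N θ = ⊤) :
    Nat.card {χ : IrrCharacter G // classInner (fun n : N => (χ : G → ℂ) n) θ ≠ 0} ≤
      Nat.card (ConjClasses (G ⧸ N)) := by
  classical
  have key : ∀ g : G, ∃ η : N → ℂ, ∀ χ : {χ : IrrCharacter G // classInner (fun n : N => (χ : G → ℂ) n) θ ≠ 0},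
      ∃ c, ∀ n : N, (χ.1 : G → ℂ) (n * g) = c * η n := fun g => by
    have le : N ≤ N ⊔ zpowers g := le_sup_left
    obtain ⟨η, h1, h2⟩ := exists_extension_le_of_isCyclic N le hθ (hinv ▸ le_top)
      (isCyclic_quotient_subgroupOf_of_map N (by
        rw [Subgroup.map_sup, (Subgroup.map_eq_bot_iff _).2 (QuotientGroup.ker_mk' N).ge, bot_sup_eq,
          MonoidHom.map_zpowers]
        infer_instance))
    have h3 : ∀ n : N.subgroupOf (N ⊔ zpowers g), η n = θ (subgroupOfEquivOfLe le n) := fun n => h2 ⟨_, n.2⟩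
    refine ⟨fun n => η (⟨n, le n.2⟩ * ⟨g, mem_sup_right (mem_zpowers g)⟩), fun χ => ?_⟩
    obtain ⟨c, hc⟩ := coset_mul (N.subgroupOf (N ⊔ zpowers g)) h1.isCharacter (funext h3 ▸ hθ.comp_equiv _)
      (χ.1.2.isCharacter.restrict _) (fun n => (congrFun (res_eq_smul_of_invariant N χ.1.2 hθ χ.2
        ((inertia_eq_top_iff N).1 hinv)) ⟨_, n.2⟩).trans (congrArg (_ * ·) (h3 n).symm)) ⟨g, mem_sup_right (mem_zpowers g)⟩
    exact ⟨c, fun n => hc ⟨n, le n.2⟩ n.2⟩
  choose η c hc using key
  choose r hr using fun C : ConjClasses (G ⧸ N) =>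
    (ConjClasses.mk_surjective.comp (QuotientGroup.mk_surjective (s := N))) C
  haveI := Fintype.ofFinite (ConjClasses (G ⧸ N))
  haveI := Fintype.ofFinite {χ : IrrCharacter G // classInner (fun n : N => (χ : G → ℂ) n) θ ≠ 0}
  have li : LinearIndependent ℂ fun χ C => c (r C) χ := Fintype.linearIndependent_iff.2 fun a ha =>
    Fintype.linearIndependent_iff.1 ((linearIndependent_irr G).comp _ Subtype.val_injective) a (funext fun x => by
      obtain ⟨y, hy⟩ := isConj_iff.1 (ConjClasses.mk_eq_mk_iff_isConj.1 (hr (ConjClasses.mk (x : G ⧸ N))).symm)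
      obtain ⟨y, rfl⟩ := QuotientGroup.mk_surjective y
      have h1 : y * x * y⁻¹ * (r (ConjClasses.mk (x : G ⧸ N)))⁻¹ ∈ N :=
        (QuotientGroup.eq_one_iff _).1 (mul_inv_eq_one.2 hy)
      have h2 := congrArg (· * η (r (ConjClasses.mk (x : G ⧸ N))) ⟨_, h1⟩) (congrFun ha (ConjClasses.mk (x : G ⧸ N)))
      simp only [Finset.sum_apply, Pi.smul_apply, smul_eq_mul, Pi.zero_apply, zero_mul, Finset.sum_mul, mul_assoc,
        ← hc, Function.comp_apply] at h2 ⊢
      refine Eq.trans (Finset.sum_congr rfl fun χ _ => ?_) h2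
      rw [inv_mul_cancel, mul_one, ← mul_assoc y, χ.1.2.isClassFunction.conj_apply])
  simpa using li.fintype_card_le_finrank

theorem main {G : Type u} [Group G] [Finite G] (hG : Group.IsSolvable G) {p : ℕ} [hp : Fact p.Prime]
    {M : Ideal AlgInt} [Modular p M] {B : Set (IrrCharacter G)} (hB : IsPBlock M B) :
    B.ncard ≤ 3 ^ (blockDefect p B - 1) * p ^ blockDefect p B := by
  have := Fintype.ofFinite G
  refine fong_induction p M (fun G _ _ B => Group.IsSolvable G →
    B.ncard ≤ 3 ^ (blockDefect p B - 1) * p ^ blockDefect p B) ?_ ?_ G (Core.isPSolvable_of_isSolvable hG) B hB hG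
  · intro G _ _ N T _ _ b hNT B' B _ hb hT hc hind ih hG
    obtain ⟨D, hD⟩ := hind.1.exists_isDefectGroup (p := p)
    have h1 := hind.2.1.card_defectGroup (hc.isDefectGroup_map hb hT hind hD)
    rw [card_subtype, hind.1.card_defectGroup hD] at h1
    rw [← Nat.pow_right_injective hp.out.two_le h1]
    refine le_trans ?_ (ih inferInstance)
    choose! f hf using fun χ => (hc.mem_iff_indFun hb hT hind χ).1
    exact Set.ncard_le_ncard_of_injOn f (fun χ h => (hf χ h).1) fun χ h ψ h' e =>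
      Subtype.ext ((hf χ h).2.trans (e ▸ (hf ψ h').2.symm))
  · intro G _ _ _ θ B _ hinv hB h1 h2 hG
    obtain ⟨P⟩ : Nonempty (Sylow p G) := inferInstance
    have h3 := hB.card_defectGroup (h2 P)
    rw [P.card_eq_multiplicity, ← (pPrimeCore p G).card_mul_index, Nat.factorization_mul Nat.card_pos.ne'
      index_ne_zero_of_finite, Finsupp.add_apply, Nat.factorization_eq_zero_of_not_dvd
      (Core.not_dvd_card_pPrimeCore p G), zero_add] at h3
    rw [← Nat.pow_right_injective hp.out.two_le h3, ← Nat.card_coe_set_eq, Set.ext h1]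
    exact (card_over_le _ θ.2 hinv).trans (grp _ (Core.pPrimeCore_quotient_pPrimeCore p G))

end Cfsg.Lib.KB
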