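import Cfsg.Agent.Lib.KR.Main
import Cfsg.Agent.Lib.PGroup.Basic

/-!
Real vectors for nilpotent linear groups.
-/

set_option autoImplicit false
set_option linter.style.haveILetI false
set_option linter.unusedSectionVars false

namespace Cfsg.Lib.KB

open Subgroup MulAction Cfsg.Lib.SL Cfsg.Lib.KP Cfsg.Lib.DL9
open scoped Pointwise commutatorElement

universe u

/-- `v` is a real vector for the action on `M` -/
structure RV (A : Type*) {V : Type*} [Group A] [AddCommGroup V] [DistribMulAction A V] {p : ℕ} (M : AddSubgroup V)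
    (v : V) (U : AddSubgroup V) (β : V →+ V →+ ZMod p) : Prop where
  mem : v ∈ M
  le : U ≤ M
  inv : ∀ a : A, a • v = v → ∀ u ∈ U, a • u ∈ U
  fa : ∀ a : A, a • v = v → (∀ u ∈ U, a • u = u) → ∀ w ∈ M, a • w = w
  bi : ∀ a : A, a • v = v → ∀ u ∈ U, ∀ w ∈ U, β (a • u) (a • w) = β u w
  nd : ∀ u ∈ U, (∀ w ∈ U, β u w = 0) → u = 0

variable {p : ℕ}

theorem rv_prim [hp : Fact p.Prime] {A V K : Type*} [Group A] [AddCommGroup V] [DistribMulAction A V] [Field K]
    [Module K V] {U R : Subgroup A} (h : Pr V K U R) [Nontrivial V] [FaithfulSMul A V] [Finite A] [Finite V]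
    [Finite K] [Group.IsNilpotent A] (hV : ∀ v : V, p • v = 0) :
    ∃ (v : V) (W : AddSubgroup V) (β : V →+ V →+ ZMod p), W ≠ ⊥ ∧ RV A ⊤ v W β := by
  have hR : R ≤ U := by
    haveI := h.ur.nU
    haveI := h.ur.nR.map _ (QuotientGroup.mk'_surjective U)
    by_contra hc
    obtain ⟨⟨_, ⟨r, hr, rfl⟩, h1⟩, h2⟩ := ne_bot_iff_exists_ne_one.1 (PGroup.normal_inf_center_ne_bot
      (R.map (QuotientGroup.mk' U)) fun e => hc (by rwa [Subgroup.map_eq_bot_iff, QuotientGroup.ker_mk'] at e))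
    refine h2 (Subtype.ext ((QuotientGroup.eq_one_iff r).2 (h.ur.mx {x | r⁻¹ * x ∈ U} (fun g t ht => ?_)
      (fun a ha b hb => ?_) (fun u hu t ht => h.ur.cU u hu t ?_) (by simp))))
    · refine QuotientGroup.eq.1 ?_
      rw [QuotientGroup.mk_mul, QuotientGroup.mk_mul, ← QuotientGroup.eq.2 ht]
      exact ((congrArg (· * _) (mem_center_iff.1 h1 (g : A ⧸ U))).trans (mul_inv_cancel_right _ _)).symm
    · have c1 : ∀ u ∈ U, ∀ r ∈ R, Commute u r := h.ur.cU
      rw [← mul_inv_cancel_left r a, ← mul_inv_cancel_left r b]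
      exact ((Commute.refl r).mul_right (c1 _ hb _ hr).symm).mul_left (c1 _ ha _ (mul_mem hr (h.ur.le hb)))
    · simpa using mul_mem hr (h.ur.le ht)
  have hl := lin_le_U h (relIndex_eq_one.2 hR)
  obtain ⟨v, hv⟩ := exists_ne (0 : V)
  haveI : CharP K p := (CharP.charP_iff_prime_eq_zero hp.out).2 (smul_left_injective K hv (by
    simpa [Nat.cast_smul_eq_nsmul] using hV v))
  letI := ZMod.algebra K p
  obtain ⟨l, hl1⟩ := (LinearMap.toSpanSingleton K V v).exists_leftInverse_of_injective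
    (LinearMap.ker_toSpanSingleton K hv)
  have l1 : ∀ c : K, l (c • v) = c := fun c => DFunLike.congr_fun hl1 c
  have sm : ∀ a : A, a • v = v → ∃ σ : K →+* K, (∀ (c : K) (w : V), a • c • w = σ c • a • w) ∧
      ∀ c : K, a • c • v = σ c • v := fun a e => (h.semi a).imp fun σ hσ => ⟨hσ, fun c => by rw [hσ, e]⟩
  refine ⟨v, (K ∙ v).toAddSubgroup, ((AddMonoidHom.mul.compr₂ (Algebra.trace (ZMod p) K).toAddMonoidHom).compl₂
    l.toAddMonoidHom).comp l.toAddMonoidHom, fun e => hv (e.le (Submodule.mem_span_singleton_self v)),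
    trivial, le_top, fun a e u hu => ?_, fun a e h1 w _ => ?_, fun a e u hu w hw => ?_, fun u hu h1 => ?_⟩
  · obtain ⟨c, rfl⟩ := Submodule.mem_span_singleton.1 hu
    obtain ⟨σ, -, hσ⟩ := sm a e
    exact Submodule.mem_span_singleton.2 ⟨_, (hσ c).symm⟩
  · obtain ⟨σ, h2, hσ⟩ := sm a e
    rw [U_free h (hl fun c w => ?_) hv e, one_smul]
    rw [h2, smul_left_injective K hv ((hσ c).symm.trans (h1 _ (Submodule.mem_span_singleton.2 ⟨c, rfl⟩)))]
  · obtain ⟨c, rfl⟩ := Submodule.mem_span_singleton.1 hu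
    obtain ⟨d, rfl⟩ := Submodule.mem_span_singleton.1 hw
    obtain ⟨σ, -, hσ⟩ := sm a e
    change Algebra.trace _ _ (l _ * l _) = Algebra.trace _ _ (l _ * l _)
    rw [hσ, hσ, l1, l1, l1, l1, ← map_mul]
    exact Algebra.trace_eq_of_algEquiv (AlgEquiv.ofBijective ⟨σ, DFunLike.congr_fun
      (RingHom.ext_zmod (σ.comp (algebraMap _ _)) _)⟩ (Finite.injective_iff_bijective.1 σ.injective)) _
  · obtain ⟨c, rfl⟩ := Submodule.mem_span_singleton.1 hu
    by_contra hc
    refine Algebra.trace_ne_zero (ZMod p) K (LinearMap.ext fun x => ?_)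
    have : Algebra.trace _ _ (l _ * l _) = _ := h1 _ (Submodule.mem_span_singleton.2 ⟨c⁻¹ * x, rfl⟩)
    rwa [l1, l1, mul_inv_cancel_left₀ (fun e => hc (by rw [e, zero_smul]))] at this

theorem rv_imp {A V : Type*} [Group A] [AddCommGroup V] [DistribMulAction A V] {W : AddSubgroup V}
    [Fintype (orbit A W)] (irr : Irr A V) (h0 : W ≠ ⊥) (hW : Indep A W) (i : orbit A W)
    {w : (i : AddSubgroup V)} {U : AddSubgroup (i : AddSubgroup V)}
    {β : (i : AddSubgroup V) →+ (i : AddSubgroup V) →+ ZMod p} (U0 : U ≠ ⊥) (h : RV (stabilizer A i) ⊤ w U β) :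
    ∃ (v : V) (W : AddSubgroup V) (β : V →+ V →+ ZMod p), W ≠ ⊥ ∧ RV A ⊤ v W β := by
  classical
  choose s hs hs' using blk_dec irr h0
  choose g hg using fun j => orbit_tr j i
  have m : ∀ (j : orbit A W) (x : V), (g j)⁻¹ • x ∈ (i : AddSubgroup V) ↔ x ∈ (j : AddSubgroup V) := fun j x => by
    rw [← orbit_mem (g j), hg, smul_inv_smul]
  let q : orbit A W → V →+ (i : AddSubgroup V) := fun j => AddMonoidHom.mk' (fun x => ⟨_, (m j _).2 (hs x j)⟩)
    fun x y => Subtype.ext (by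
      rw [AddSubgroup.coe_add, ← smul_add]
      exact congrArg _ (hW.eq (hs _) (fun k => add_mem (hs x k) (hs y k))
        (by rw [Finset.sum_add_distrib, hs', hs', hs']) j))
  let t : A → orbit A W → stabilizer A i := fun a j => ⟨(g (a • j))⁻¹ * a * g j, by
    rw [mem_stabilizer_iff, mul_smul, mul_smul, hg, inv_smul_eq_iff, hg]⟩
  have q1 : ∀ (a : A) j x, q (a • j) (a • x) = t a j • q j x := fun a j x => Subtype.ext (by
    change (g (a • j))⁻¹ • s _ _ = (_ * a * g j) • (g j)⁻¹ • s _ _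
    rw [mul_smul, mul_smul, smul_inv_smul, blk_eq hW (hs x) (hs (a • x)) (by rw [hs', hs'])])
  have q2 : ∀ (u : orbit A W → (i : AddSubgroup V)) j, q j (∑ k, g k • (u k : V)) = u j := fun u j =>
    Subtype.ext (inv_smul_eq_iff.2 (hW.eq (hs _) (fun k => (m k _).1 (by simp)) (hs' _) j))
  have q3 : ∀ x, ∑ k, g k • (q k x : V) = x := fun x =>
    (Finset.sum_congr rfl fun k _ => smul_inv_smul _ _).trans (hs' x)
  have q4 : ∀ (a : A) j, a • ∑ k, g k • (w : V) = ∑ k, g k • (w : V) → t a j • w = w := fun a j e => by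
    have := q1 a j (∑ k, g k • (w : V))
    rwa [e, q2 fun _ => w, q2 fun _ => w, eq_comm] at this
  have q5 : ∀ j, ∀ u ∈ U, ∑ k, g k • ((Pi.single j u : orbit A W → (i : AddSubgroup V)) k : V) ∈
      ⨅ j, U.comap (q j) := fun j u hu => AddSubgroup.mem_iInf.2 fun k => by
    rw [AddSubgroup.mem_comap, q2]
    by_cases e : k = j
    · rwa [e, Pi.single_eq_same]
    · rw [Pi.single_eq_of_ne e]; exact zero_mem _
  obtain ⟨⟨u₀, hu₀⟩, u0⟩ := AddSubgroup.ne_bot_iff_exists_ne_zero.1 U0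
  replace u0 : u₀ ≠ 0 := fun e => u0 (Subtype.ext e)
  refine ⟨∑ k, g k • (w : V), ⨅ j, U.comap (q j), ∑ j, (β.compl₂ (q j)).comp (q j), fun e => u0 ?_, trivial, le_top,
    fun a e u hu => AddSubgroup.mem_iInf.2 fun j => ?_, fun a e h1 x _ => ?_, fun a e x hx y hy => ?_,
    fun x hx h1 => ?_⟩
  · have := congrArg (q i) (AddSubgroup.mem_bot.1 (e.le (q5 i u₀ hu₀)))
    rwa [q2, Pi.single_eq_same, map_zero] at this
  · rw [← smul_inv_smul a j, AddSubgroup.mem_comap, q1]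
    exact h.inv _ (q4 a _ e) _ (AddSubgroup.mem_iInf.1 hu _)
  · have k1 : ∀ j, ∀ u ∈ U, (Pi.single j u : orbit A W → (i : AddSubgroup V)) (a • j) = t a j • u := fun j u hu => by
      have := q1 a j (∑ k, g k • ((Pi.single j u : orbit A W → (i : AddSubgroup V)) k : V))
      rwa [h1 _ (q5 j u hu), q2, q2, Pi.single_eq_same] at this
    have k2 : ∀ j, a • j = j := fun j => by_contra fun ne => u0 ((smul_eq_zero_iff_eq (t a j)).1 (by
      rw [← k1 j _ hu₀, Pi.single_eq_of_ne ne]))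
    rw [← q3 (a • x), ← q3 x]
    refine Finset.sum_congr rfl fun j _ => ?_
    rw [q3, ← k2 j, q1, k2, h.fa _ (q4 a j e) (fun u hu => by rw [← k1 j u hu, k2, Pi.single_eq_same]) _ trivial]
  · simp only [AddMonoidHom.finsetSum_apply, AddMonoidHom.comp_apply, AddMonoidHom.compl₂_apply]
    rw [← Equiv.sum_comp (toPerm a)]
    refine Finset.sum_congr rfl fun j _ => ?_
    rw [toPerm_apply, q1, q1]
    exact h.bi _ (q4 a _ e) _ (AddSubgroup.mem_iInf.1 hx _) _ (AddSubgroup.mem_iInf.1 hy _)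
  · rw [← q3 x]
    refine Finset.sum_eq_zero fun j _ => ?_
    rw [h.nd _ (AddSubgroup.mem_iInf.1 hx j) fun u hu => ?_, ZeroMemClass.coe_zero, smul_zero]
    have := h1 _ (q5 j u hu)
    simp only [AddMonoidHom.finsetSum_apply, AddMonoidHom.comp_apply, AddMonoidHom.compl₂_apply, q2] at this
    rwa [Finset.sum_eq_single j (fun k _ e => by rw [Pi.single_eq_of_ne e, map_zero]) (by simp),
      Pi.single_eq_same] at this

theorem RV.range {A V : Type*} [Group A] [AddCommGroup V] [DistribMulAction A V] {M U : AddSubgroup V} {v : V}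
    {β : V →+ V →+ ZMod p} (h : RV (emb A V).range M v U β) : RV A M v U β :=
  ⟨h.mem, h.le, fun a => h.inv ((emb A V).rangeRestrict a), fun a => h.fa ((emb A V).rangeRestrict a),
    fun a => h.bi ((emb A V).rangeRestrict a), h.nd⟩

theorem rv_irr [Fact p.Prime] (n : ℕ) (A : Type*) (V : Type u) [Group A] [Finite A] [Group.IsNilpotent A]
    [AddCommGroup V] [Finite V] [Nontrivial V] [DistribMulAction A V] (hn : Nat.card V = n) (irr : Irr A V)
    (hV : ∀ v : V, p • v = 0) :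
    ∃ (v : V) (W : AddSubgroup V) (β : V →+ V →+ ZMod p), W ≠ ⊥ ∧ RV A ⊤ v W β := by
  have red : ∀ n, (∀ (A V : Type u) [Group A] [Finite A] [Group.IsNilpotent A] [AddCommGroup V] [Finite V]
      [Nontrivial V] [DistribMulAction A V] [FaithfulSMul A V], Nat.card V = n → Irr A V → (∀ v : V, p • v = 0) →
      ∃ (v : V) (W : AddSubgroup V) (β : V →+ V →+ ZMod p), W ≠ ⊥ ∧ RV A ⊤ v W β) →
      ∀ (A : Type _) (V : Type u) [Group A] [Finite A] [Group.IsNilpotent A] [AddCommGroup V] [Finite V]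
      [Nontrivial V] [DistribMulAction A V], Nat.card V = n → Irr A V → (∀ v : V, p • v = 0) →
      ∃ (v : V) (W : AddSubgroup V) (β : V →+ V →+ ZMod p), W ≠ ⊥ ∧ RV A ⊤ v W β :=
    fun n H A V _ _ _ _ _ _ _ hn irr hV => by
      haveI := Group.nilpotent_of_surjective _ (emb A V).rangeRestrict_surjective
      obtain ⟨v, W, β, h1, h2⟩ := H _ V hn (irr_range irr) hV
      exact ⟨v, W, β, h1, h2.range⟩
  refine red n ?_ A V hn irr hV
  clear hn red
  induction n using Nat.strong_induction_on with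
  | _ n ih =>
  intro A V _ _ _ _ _ _ _ _ hn irr hV
  rcases dich' (A := A) (V := V) with ⟨W, h0, h1, hW⟩ | ⟨K, _, _, _, U, R, h⟩
  · haveI := Fintype.ofFinite (orbit A W)
    have t2 := two_le_orbit irr h0 h1 hW
    have w2 := (AddSubgroup.one_lt_card_iff_ne_bot W).2 h0
    obtain ⟨i⟩ : Nonempty (orbit A W) := ⟨⟨W, mem_orbit_self W⟩⟩
    haveI : Nontrivial (i : AddSubgroup V) := Finite.one_lt_card_iff_nontrivial.1 (by rw [blk_card]; exact w2)
    haveI := Group.nilpotent_of_surjective _ (emb (stabilizer A i) (i : AddSubgroup V)).rangeRestrict_surjective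
    obtain ⟨v, U, β, h2, h3⟩ := ih _ (by
      rw [← hn, blk_pow irr h0 hW]; nlinarith [Nat.pow_le_pow_right (zero_lt_one.trans w2) t2]) _ _ (blk_card i)
      (irr_range (blk_irr irr hW i)) fun v => Subtype.ext (hV v)
    exact rv_imp irr h0 hW i h2 h3.range
  · exact rv_prim h hV

theorem exists_retr [Fact p.Prime] {V : Type*} [AddCommGroup V] [Module (ZMod p) V] {M N : AddSubgroup V}
    (h : M ⊓ N = ⊥) : ∃ r : V →+ V, (∀ v ∈ M, r v = v) ∧ ∀ v ∈ N, r v = 0 := by
  let f := (N.toZModSubmodule p).mkQ ∘ₗ (M.toZModSubmodule p).subtype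
  obtain ⟨l, hl⟩ := f.exists_leftInverse_of_injective (LinearMap.ker_eq_bot'.2 fun v hv =>
    Subtype.ext (h.le ⟨v.2, (Submodule.Quotient.mk_eq_zero _).1 hv⟩))
  exact ⟨((M.toZModSubmodule p).subtype ∘ₗ l ∘ₗ (N.toZModSubmodule p).mkQ).toAddMonoidHom,
    fun v hv => congrArg Subtype.val (DFunLike.congr_fun hl (⟨v, hv⟩ : M.toZModSubmodule p) :), fun v hv => by
      simp [(Submodule.Quotient.mk_eq_zero (N.toZModSubmodule p)).2 hv]⟩

theorem rv_cr [Fact p.Prime] {A : Type*} {V : Type u} [Group A] [Finite A] [Group.IsNilpotent A]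
    [AddCommGroup V] [Finite V] [DistribMulAction A V] [Module (ZMod p) V] (cr : CR A V) :
    ∃ (v : V) (W : AddSubgroup V) (β : V →+ V →+ ZMod p), RV A ⊤ v W β := by
  refine cr_ind cr (fun M => ∃ (v : V) (W : AddSubgroup V) (β : V →+ V →+ ZMod p), RV A M v W β)
    (fun M hM irr => ?_) ?_
  · rcases subsingleton_or_nontrivial M with hs | hs
    · have : ∀ w ∈ M, w = 0 := fun w hw => congrArg Subtype.val (Subsingleton.elim (⟨w, hw⟩ : M) 0)
      exact ⟨0, ⊥, 0, zero_mem _, bot_le, fun a _ u hu => by simp [AddSubgroup.mem_bot.1 hu],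
        fun a _ _ w hw => by rw [this w hw, smul_zero], fun _ _ _ _ _ _ => rfl, fun _ hu _ => hu⟩
    letI := invAct A M hM
    obtain ⟨v, W, β, -, h⟩ := rv_irr (p := p) _ A M rfl irr fun v => Subtype.ext (ZModModule.char_nsmul_eq_zero p _)
    obtain ⟨l, hl⟩ := (M.toZModSubmodule p).subtype.exists_leftInverse_of_injective (Submodule.ker_subtype _)
    let r : V →+ M := l.toAddMonoidHom
    have hr : ∀ x : M, r x = x := DFunLike.congr_fun hl
    refine ⟨v, W.map M.subtype, (β.compl₂ r).comp r, v.2, AddSubgroup.map_subtype_le _, fun a e => ?_,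
      fun a e h1 w hw => congrArg Subtype.val (h.fa a (Subtype.ext e) (fun u hu => Subtype.ext (h1 _ ⟨u, hu, rfl⟩))
        ⟨w, hw⟩ trivial), fun a e => ?_, ?_⟩
    · rintro _ ⟨u, hu, rfl⟩
      exact ⟨_, h.inv a (Subtype.ext e) u hu, rfl⟩
    · rintro _ ⟨u, hu, rfl⟩ _ ⟨w, hw, rfl⟩
      change β (r (a • u : M)) (r (a • w : M)) = β (r u) (r w)
      rw [hr, hr, hr, hr, h.bi a (Subtype.ext e) u hu w hw]
    · rintro _ ⟨u, hu, rfl⟩ h1
      exact congrArg Subtype.val (h.nd u hu fun w hw => by rw [← hr u, ← hr w]; exact h1 _ ⟨w, hw, rfl⟩)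
  rintro M N hM hN h0 ⟨v, U, β, h⟩ ⟨v', U', β', h'⟩
  obtain ⟨r, r1, r2⟩ := exists_retr (p := p) h0
  obtain ⟨s, s1, s2⟩ := exists_retr (p := p) ((inf_comm _ _).trans h0)
  have k1 : ∀ a : A, a • (v + v') = v + v' → a • v = v ∧ a • v' = v' := fun a e => by
    have e1 := congrArg r e
    have e2 := congrArg s e
    rw [smul_add, map_add, map_add] at e1 e2
    rw [r1 _ (hM a _ h.mem), r2 _ (hN a _ h'.mem), r1 _ h.mem, r2 _ h'.mem, add_left_inj] at e1
    rw [s2 _ (hM a _ h.mem), s1 _ (hN a _ h'.mem), s2 _ h.mem, s1 _ h'.mem, add_right_inj] at e2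
    exact ⟨e1, e2⟩
  have k2 : ∀ x ∈ U, ∀ x' ∈ U', ∀ y ∈ U, ∀ y' ∈ U', ((β.compl₂ r).comp r + (β'.compl₂ s).comp s) (x + x') (y + y') =
      β x y + β' x' y' := fun x hx x' hx' y hy y' hy' => by
    change β (r _) (r _) + β' (s _) (s _) = _
    rw [map_add r, map_add r, map_add s, map_add s, r1 _ (h.le hx), r1 _ (h.le hy), r2 _ (h'.le hx'),
      r2 _ (h'.le hy'), s2 _ (h.le hx), s2 _ (h.le hy), s1 _ (h'.le hx'), s1 _ (h'.le hy')]
    simp
  refine ⟨v + v', U ⊔ U', (β.compl₂ r).comp r + (β'.compl₂ s).comp s, AddSubgroup.add_mem_sup h.mem h'.mem,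
    sup_le_sup h.le h'.le, fun a e u hu => ?_, fun a e h1 w hw => ?_, fun a e u hu w hw => ?_, fun u hu h1 => ?_⟩
  · obtain ⟨x, hx, x', hx', rfl⟩ := AddSubgroup.mem_sup.1 hu
    rw [smul_add]
    exact AddSubgroup.add_mem_sup (h.inv a (k1 a e).1 x hx) (h'.inv a (k1 a e).2 x' hx')
  · obtain ⟨x, hx, x', hx', rfl⟩ := AddSubgroup.mem_sup.1 hw
    rw [smul_add, h.fa a (k1 a e).1 (fun u hu => h1 u (AddSubgroup.mem_sup_left hu)) x hx,
      h'.fa a (k1 a e).2 (fun u hu => h1 u (AddSubgroup.mem_sup_right hu)) x' hx']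
  · obtain ⟨x, hx, x', hx', rfl⟩ := AddSubgroup.mem_sup.1 hu
    obtain ⟨y, hy, y', hy', rfl⟩ := AddSubgroup.mem_sup.1 hw
    obtain ⟨e1, e2⟩ := k1 a e
    rw [smul_add, smul_add, k2 _ (h.inv a e1 x hx) _ (h'.inv a e2 x' hx') _ (h.inv a e1 y hy) _ (h'.inv a e2 y' hy'),
      k2 x hx x' hx' y hy y' hy', h.bi a e1 x hx y hy, h'.bi a e2 x' hx' y' hy']
  · obtain ⟨x, hx, x', hx', rfl⟩ := AddSubgroup.mem_sup.1 hu
    rw [h.nd x hx fun y hy => ?_, h'.nd x' hx' fun y hy => ?_, add_zero]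
    · simpa using (k2 x hx x' hx' 0 (zero_mem _) y hy).symm.trans (h1 _ (AddSubgroup.add_mem_sup (zero_mem _) hy))
    · simpa using (k2 x hx x' hx' y hy 0 (zero_mem _)).symm.trans (h1 _ (AddSubgroup.add_mem_sup hy (zero_mem _)))

end Cfsg.Lib.KB
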